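import Mathlib

/-!
# Arithmetic of the degrees of `PSU₄(q)` (helper934)
-/

set_option autoImplicit false

namespace Cfsg.Agent.H934.Eight

theorem exists_a {q : ℕ} (hq : 2 ≤ q) : ∃ a, a.Prime ∧ a ≠ 2 ∧ a ∣ q ^ 2 + 1 := by
  rcases Nat.even_or_odd' q with ⟨k, rfl | rfl⟩
  · have h1 : (2 * k) ^ 2 + 1 ≠ 1 := by
      have : 0 < (2 * k) ^ 2 := by positivity
      omega
    obtain ⟨a, ha, had⟩ := Nat.exists_prime_and_dvd h1
    refine ⟨a, ha, ?_, had⟩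
    rintro rfl
    have h2 : (2 * k) ^ 2 = 2 * (2 * k ^ 2) := by ring
    omega
  · have h1 : 2 * (k * (k + 1)) + 1 ≠ 1 := by
      have : 0 < k * (k + 1) := Nat.mul_pos (by omega) (by omega)
      omega
    obtain ⟨a, ha, had⟩ := Nat.exists_prime_and_dvd h1
    refine ⟨a, ha, ?_, ?_⟩
    · rintro rfl
      omega
    · have h2 : (2 * k + 1) ^ 2 + 1 = 2 * (2 * (k * (k + 1)) + 1) := by ring
      rw [h2]
      exact Dvd.dvd.mul_left had _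

theorem exists_l {q m : ℕ} (hq : 3 ≤ q) (hm : m + q = q ^ 2 + 1) : ∃ l, l.Prime ∧ l ≠ 3 ∧ l ∣ m := by
  have hm3 : 3 < m := by nlinarith
  by_cases h3 : 3 ∣ m
  · obtain ⟨n, rfl⟩ := h3
    have hn : ¬ 3 ∣ n := by
      rintro ⟨c, rfl⟩
      have h1 : (3 * (3 * c) + q) % 9 = (q ^ 2 + 1) % 9 := by rw [hm]
      rw [Nat.add_mod, Nat.add_mod (q ^ 2), Nat.pow_mod] at h1
      have h2 : 3 * (3 * c) % 9 = 0 := by omega
      rw [h2] at h1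
      have h3 : q % 9 < 9 := Nat.mod_lt _ (by norm_num)
      interval_cases q % 9 <;> simp at h1
    obtain ⟨l, hl, hld⟩ := Nat.exists_prime_and_dvd (show n ≠ 1 by omega)
    refine ⟨l, hl, ?_, Dvd.dvd.mul_left hld _⟩
    rintro rfl
    exact hn hld
  · obtain ⟨l, hl, hld⟩ := Nat.exists_prime_and_dvd (show m ≠ 1 by omega)
    refine ⟨l, hl, ?_, hld⟩
    rintro rfl
    exact h3 hld

section

variable {q : ℕ}

theorem a_not_q {a : ℕ} (ha : a.Prime) (h : a ∣ q ^ 2 + 1) : ¬ a ∣ q := by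
  intro h1
  have h2 : a ∣ q ^ 2 := dvd_pow h1 two_ne_zero
  have h3 := (Nat.dvd_add_right h2).1 h
  exact ha.one_lt.ne' (Nat.dvd_one.1 h3)

theorem a_not_succ {a : ℕ} (ha : a.Prime) (h2 : a ≠ 2) (h : a ∣ q ^ 2 + 1) : ¬ a ∣ q + 1 := by
  intro h1
  have h3 : ((a : ℕ) : ℤ) ∣ (q : ℤ) + 1 := by exact_mod_cast h1
  have h4 : ((a : ℕ) : ℤ) ∣ (q : ℤ) ^ 2 + 1 := by exact_mod_cast h
  have h5 : ((a : ℕ) : ℤ) ∣ 2 := by
    have h6 := Int.dvd_sub h4 (Dvd.dvd.mul_right h3 ((q : ℤ) - 1))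
    have e : (q : ℤ) ^ 2 + 1 - ((q : ℤ) + 1) * ((q : ℤ) - 1) = 2 := by ring
    rwa [e] at h6
  have h7 : a ∣ 2 := by exact_mod_cast h5
  exact h2 ((Nat.prime_dvd_prime_iff_eq ha Nat.prime_two).1 h7)

theorem a_not_cube {a : ℕ} (ha : a.Prime) (h2 : a ≠ 2) (h : a ∣ q ^ 2 + 1) : ¬ a ∣ q ^ 3 + 1 := by
  intro h1
  have h3 : ((a : ℕ) : ℤ) ∣ (q : ℤ) ^ 3 + 1 := by exact_mod_cast h1
  have h4 : ((a : ℕ) : ℤ) ∣ (q : ℤ) ^ 2 + 1 := by exact_mod_cast h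
  have h5 : ((a : ℕ) : ℤ) ∣ 2 := by
    have h6 := Int.dvd_add (Dvd.dvd.mul_right h3 ((q : ℤ) + 1)) (Dvd.dvd.mul_right h4 (1 - (q : ℤ) - (q : ℤ) ^ 2))
    have e : ((q : ℤ) ^ 3 + 1) * ((q : ℤ) + 1) + ((q : ℤ) ^ 2 + 1) * (1 - (q : ℤ) - (q : ℤ) ^ 2) = 2 := by ring
    rwa [e] at h6
  have h7 : a ∣ 2 := by exact_mod_cast h5
  exact h2 ((Nat.prime_dvd_prime_iff_eq ha Nat.prime_two).1 h7)

theorem l_not_succ {l m : ℕ} (hm : m + q = q ^ 2 + 1) (hl : l.Prime) (h2 : l ≠ 3) (h : l ∣ m) : ¬ l ∣ q + 1 := by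
  intro h1
  have h3 : ((l : ℕ) : ℤ) ∣ (q : ℤ) + 1 := by exact_mod_cast h1
  have h4 : ((l : ℕ) : ℤ) ∣ (m : ℤ) := by exact_mod_cast h
  have hm' : (m : ℤ) = (q : ℤ) ^ 2 + 1 - q := by
    have : ((m + q : ℕ) : ℤ) = ((q ^ 2 + 1 : ℕ) : ℤ) := by rw [hm]
    push_cast at this
    linarith
  have h5 : ((l : ℕ) : ℤ) ∣ 3 := by
    have h6 := Int.dvd_sub h4 (Dvd.dvd.mul_right h3 ((q : ℤ) - 2))
    have e : (m : ℤ) - ((q : ℤ) + 1) * ((q : ℤ) - 2) = 3 := by rw [hm']; ring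
    rwa [e] at h6
  have h7 : l ∣ 3 := by exact_mod_cast h5
  exact h2 ((Nat.prime_dvd_prime_iff_eq hl Nat.prime_three).1 h7)

theorem l_not_q {l m : ℕ} (hm : m + q = q ^ 2 + 1) (hl : l.Prime) (h : l ∣ m) : ¬ l ∣ q := by
  intro h1
  have h2 : l ∣ q ^ 2 := dvd_pow h1 two_ne_zero
  have h3 : l ∣ q ^ 2 + 1 := by rw [← hm]; exact dvd_add h h1
  have h4 := (Nat.dvd_add_right h2).1 h3
  exact hl.one_lt.ne' (Nat.dvd_one.1 h4)

theorem l_not_sq {l m : ℕ} (hm : m + q = q ^ 2 + 1) (hl : l.Prime) (h : l ∣ m) : ¬ l ∣ q ^ 2 + 1 := by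
  intro h1
  rw [← hm] at h1
  exact l_not_q hm hl h ((Nat.dvd_add_right h).1 h1)

theorem l_dvd_cube {l m : ℕ} (hm : m + q = q ^ 2 + 1) (h : l ∣ m) : l ∣ q ^ 3 + 1 := by
  have e : q ^ 3 + 1 = m * (q + 1) := by
    have h1 : m * (q + 1) + q * (q + 1) = (q ^ 2 + 1) * (q + 1) := by rw [← add_mul, hm]
    nlinarith
  rw [e]
  exact Dvd.dvd.mul_right h _

theorem l_odd {l m : ℕ} (hm : m + q = q ^ 2 + 1) (h : l ∣ m) : l ≠ 2 := by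
  rintro rfl
  obtain ⟨c, rfl⟩ := h
  have h1 : (q * q) % 2 = q % 2 := by
    rcases Nat.even_or_odd' q with ⟨k, rfl | rfl⟩
    · rw [show 2 * k * (2 * k) = 2 * (2 * k * k) by ring]; omega
    · rw [show (2 * k + 1) * (2 * k + 1) = 2 * (2 * k * k + 2 * k) + 1 by ring]; omega
  rw [pow_two] at hm
  omega

theorem dvd_eight (hq : 2 ≤ q) {p k e t : ℕ} (hp : p.Prime) (hpq : p ∣ q) (ht : t ∣ q + 1)
    (h : (q + 1) * (q ^ 2 - 1) * (q ^ 3 + 1) ∣ p ^ k * (e * t)) : (q ^ 2 - 1) * (q ^ 3 + 1) ∣ e := by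
  have h1 : Nat.Coprime ((q + 1) * (q ^ 2 - 1) * (q ^ 3 + 1)) (p ^ k) := by
    apply Nat.Coprime.pow_right
    refine Nat.Coprime.symm ((Nat.Prime.coprime_iff_not_dvd hp).2 fun h => ?_)
    rcases hp.dvd_mul.1 h with h | h
    · rcases hp.dvd_mul.1 h with h | h
      · exact hp.one_lt.ne' (Nat.dvd_one.1 ((Nat.dvd_add_right hpq).1 h))
      · have h6 : p ∣ q ^ 2 := dvd_pow hpq (by omega)
        have h7 : 1 ≤ q ^ 2 := Nat.one_le_pow _ _ (by omega)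
        exact hp.one_lt.ne' (Nat.dvd_one.1 ((Nat.dvd_sub_iff_right h7 h6).1 h))
    · exact hp.one_lt.ne' (Nat.dvd_one.1 ((Nat.dvd_add_right (dvd_pow hpq (by norm_num))).1 h))
  have h2 := h1.dvd_of_dvd_mul_left h
  obtain ⟨s, hs⟩ := ht
  have h3 : (q + 1) * ((q ^ 2 - 1) * (q ^ 3 + 1)) ∣ (q + 1) * e := by
    refine Dvd.dvd.trans (dvd_of_eq (by ring)) (h2.trans ?_)
    rw [hs]
    exact ⟨s, by ring⟩
  exact (Nat.mul_dvd_mul_iff_left (by omega)).1 h3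

/-- the distinctness -/
theorem nodup_of (hq : 3 ≤ q) {p m a l e6 e8 e9 : ℕ} (hp : p.Prime) (hpq : p ∣ q) (hm : m + q = q ^ 2 + 1)
    (ha : a.Prime) (ha2 : a ≠ 2) (had : a ∣ q ^ 2 + 1) (hl : l.Prime) (hl3 : l ≠ 3) (hld : l ∣ m)
    (h6a : a ∣ e6) (h6l : l ∣ e6) (h6 : e6 ∣ (q ^ 2 + 1) * (q ^ 3 + 1))
    (h8 : (q ^ 2 - 1) * (q ^ 3 + 1) ∣ e8) (h80 : 0 < e8) (h9l : l ∣ e9) (h9 : e9 ∣ (q + 1) * (q ^ 3 + 1)) :
    [1, q ^ 6, q ^ 2 * (q ^ 2 + 1), q ^ 3 * m, q * m, e6, e8, e9].Nodup := by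
  have hq0 : 0 < q := by omega
  have hal : a ≠ l := by
    rintro rfl
    exact l_not_sq hm hl hld had
  have haq := a_not_q ha had
  have hlq := l_not_q hm hl hld
  have hlm : ¬ a ∣ m := by
    intro h
    exact a_not_cube ha ha2 had (l_dvd_cube hm h)
  have h8l : l ∣ e8 := (Dvd.dvd.mul_left (l_dvd_cube hm hld) _).trans h8
  have h9a : ¬ a ∣ e9 := by
    intro h
    rcases ha.dvd_mul.1 (h.trans h9) with h | h
    · exact a_not_succ ha ha2 had h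
    · exact a_not_cube ha ha2 had h
  have h9p : ¬ p ∣ e9 := by
    intro h
    rcases hp.dvd_mul.1 (h.trans h9) with h | h
    · exact hp.one_lt.ne' (Nat.dvd_one.1 ((Nat.dvd_add_right hpq).1 h))
    · exact hp.one_lt.ne' (Nat.dvd_one.1 ((Nat.dvd_add_right (dvd_pow hpq (by norm_num))).1 h))
  have hq2 : 9 ≤ q ^ 2 := by nlinarith
  have hm0 : 0 < m := by nlinarith
  have hb8 : (q ^ 2 - 1) * (q ^ 3 + 1) ≤ e8 := Nat.le_of_dvd h80 h8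
  have hb9 : e9 ≤ (q + 1) * (q ^ 3 + 1) := Nat.le_of_dvd (by positivity) h9
  have hqq : q + 1 < q ^ 2 - 1 := by
    have : q + 2 < q ^ 2 := by nlinarith
    omega
  have h98 : e9 < e8 := by
    refine lt_of_le_of_lt hb9 (lt_of_lt_of_le ?_ hb8)
    exact Nat.mul_lt_mul_of_pos_right hqq (by positivity)
  have hD4 : q ^ 3 * m < e8 := by
    refine lt_of_lt_of_le ?_ hb8
    have h1 : m ≤ q ^ 2 - 1 := by omega
    calc q ^ 3 * m ≤ q ^ 3 * (q ^ 2 - 1) := Nat.mul_le_mul_left _ h1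
      _ < (q ^ 3 + 1) * (q ^ 2 - 1) := Nat.mul_lt_mul_of_pos_right (by omega) (by omega)
      _ = _ := mul_comm _ _
  have hq13 : q < q ^ 3 := by
    calc q = q ^ 1 := (pow_one q).symm
      _ < q ^ 3 := Nat.pow_lt_pow_right (by omega) (by norm_num)
  have hD5 : q * m < q ^ 3 * m := Nat.mul_lt_mul_of_pos_right hq13 hm0
  have h68 : e6 ≠ e8 := by
    rintro rfl
    have h1 := h8.trans h6
    have h2 := (Nat.mul_dvd_mul_iff_right (by positivity : 0 < q ^ 3 + 1)).1 h1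
    have h3 : q ^ 2 - 1 ∣ (q ^ 2 + 1) - (q ^ 2 - 1) := Nat.dvd_sub h2 (dvd_refl _)
    have h4 : (q ^ 2 + 1) - (q ^ 2 - 1) = 2 := by omega
    rw [h4] at h3
    have := Nat.le_of_dvd (by norm_num) h3
    omega
  have nl : ∀ {x y : ℕ}, l ∣ y → ¬ l ∣ x → x ≠ y := by
    rintro x y h1 h2 rfl
    exact h2 h1
  have na : ∀ {x y : ℕ}, a ∣ y → ¬ a ∣ x → x ≠ y := by
    rintro x y h1 h2 rfl
    exact h2 h1
  have l1 : ¬ l ∣ 1 := fun h => hl.one_lt.ne' (Nat.dvd_one.1 h)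
  have a1 : ¬ a ∣ 1 := fun h => ha.one_lt.ne' (Nat.dvd_one.1 h)
  have l2 : ¬ l ∣ q ^ 6 := fun h => hlq (hl.dvd_of_dvd_pow h)
  have a2 : ¬ a ∣ q ^ 6 := fun h => haq (ha.dvd_of_dvd_pow h)
  have l3 : ¬ l ∣ q ^ 2 * (q ^ 2 + 1) := fun h => (hl.dvd_mul.1 h).elim (fun h => hlq (hl.dvd_of_dvd_pow h))
    (l_not_sq hm hl hld)
  have a3 : a ∣ q ^ 2 * (q ^ 2 + 1) := Dvd.dvd.mul_left had _
  have a4 : ¬ a ∣ q ^ 3 * m := fun h => (ha.dvd_mul.1 h).elim (fun h => haq (ha.dvd_of_dvd_pow h)) hlm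
  have a5 : ¬ a ∣ q * m := fun h => (ha.dvd_mul.1 h).elim haq hlm
  have l4 : l ∣ q ^ 3 * m := Dvd.dvd.mul_left hld _
  have l5 : l ∣ q * m := Dvd.dvd.mul_left hld _
  have p4 : p ∣ q ^ 3 * m := Dvd.dvd.mul_right (dvd_pow hpq (by norm_num)) _
  have p5 : p ∣ q * m := Dvd.dvd.mul_right hpq _
  have h12 : 1 ≠ q ^ 6 := (Nat.one_lt_pow (by norm_num) (by omega)).ne
  simp only [List.nodup_cons, List.mem_cons, List.not_mem_nil, or_false, not_or, not_false_eq_true, and_true,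
    List.nodup_nil]
  refine ⟨⟨h12, na a3 a1, nl l4 l1, nl l5 l1, nl h6l l1, nl h8l l1, nl h9l l1⟩,
    ⟨na a3 a2, nl l4 l2, nl l5 l2, nl h6l l2, nl h8l l2, nl h9l l2⟩,
    ⟨nl l4 l3, nl l5 l3, nl h6l l3, nl h8l l3, nl h9l l3⟩,
    ⟨hD5.ne', na h6a a4, hD4.ne, fun h => h9p (h ▸ p4)⟩,
    ⟨na h6a a5, (hD5.trans hD4).ne, fun h => h9p (h ▸ p5)⟩,
    ⟨h68, fun h => h9a (h ▸ h6a)⟩, h98.ne'⟩

end

end Cfsg.Agent.H934.Eight
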