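import Cfsg.Agent.H934.Eight.Chars
import Cfsg.Agent.H934.Eight.Num
import Cfsg.Agent.H167.HasStLie
import Cfsg.Agent.S0283

/-!
# At least eight character degrees: `PSU₄(q)`, `q ≥ 4` (helper934)
-/

set_option autoImplicit false

open scoped ComplexConjugate
open Cfsg

namespace Cfsg.Agent.H934.Eight

open Module Cfsg.Agent.H477.HC Cfsg.Agent.H664.Eight

universe u v

/-- an anisotropic binary form exists -/
theorem exists_ab (K : Type u) [Field K] [Finite K] :
    ∃ a b : K, ∀ z₁ z₂ : K, z₁ ^ 2 + a * z₁ * z₂ + b * z₂ ^ 2 = 0 → z₁ = 0 ∧ z₂ = 0 := by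
  have h1 : ¬ Function.Surjective (fun x : K => x ^ 2 - x) := by
    intro h
    have h2 := (Finite.injective_iff_surjective (f := fun x : K => x ^ 2 - x)).2 h
    have h3 : (0 : K) = 1 := h2 (by simp)
    exact zero_ne_one h3
  obtain ⟨c, hc⟩ := not_forall.1 h1
  refine ⟨-1, -c, fun z₁ z₂ h => ?_⟩
  have h2 : z₂ = 0 := by
    by_contra h0
    apply hc
    refine ⟨z₁ / z₂, ?_⟩
    simp only
    field_simp
    linear_combination h
  rw [h2] at h
  refine ⟨?_, h2⟩
  have h3 : z₁ ^ 2 = 0 := by linear_combination h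
  exact pow_eq_zero_iff two_ne_zero |>.1 h3

theorem exists_K {F : Type u} [Field F] [Fintype F] {q : ℕ} (hF : Fintype.card F = q ^ 2) :
    ∃ (K : Type) (_ : Field K) (_ : Finite K), Nat.card K = q := by
  classical
  obtain ⟨p, hp⟩ := CharP.exists F
  have hpr : p.Prime := (CharP.char_is_prime_or_zero F p).resolve_right (CharP.char_ne_zero_of_finite F p)
  have : Fact p.Prime := ⟨hpr⟩
  obtain ⟨n, -, hn⟩ := FiniteField.card F p
  rw [hF] at hn
  obtain ⟨e, -, he⟩ := (Nat.dvd_prime_pow hpr).1 (Dvd.intro_left q (by rw [← pow_two]; exact hn) : q ∣ p ^ (n : ℕ))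
  have he0 : e ≠ 0 := by
    rintro rfl
    rw [pow_zero] at he
    rw [he, one_pow] at hF
    have := Fintype.one_lt_card (α := F)
    omega
  exact ⟨GaloisField p e, inferInstance, inferInstance, by rw [GaloisField.card p e he0, he]⟩

theorem mem_of_ch {S : Type u} [Group S] {d : ℕ} (h : Ch S d) : d ∈ charDegrees S := by
  obtain ⟨χ, hχ⟩ := h.exists_irr
  exact ⟨χ, hχ⟩

theorem dvd_of_down {t N e n : ℕ} (ht : t.Prime) (h1 : e ∣ N) (h2 : N / e ∣ n) (h3 : t ∣ N) (h4 : ¬ t ∣ n) : t ∣ e := by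
  obtain ⟨c, rfl⟩ := h1
  rcases Nat.eq_zero_or_pos e with rfl | h0
  · exact dvd_zero _
  rw [Nat.mul_div_cancel_left c h0] at h2
  exact (ht.dvd_mul.1 h3).resolve_right fun h => h4 (h.trans h2)

theorem finite_psu (F : Type u) [Field F] [Finite F] (n q : ℕ) : Finite (PSU n F q) := by
  have : Finite (GL (Fin n) F) := inferInstance
  have : Finite (SU n F q) := inferInstance
  exact inferInstanceAs (Finite (_ ⧸ _))

/-- the Steinberg character -/
theorem ch_st {F : Type} [Field F] [Fintype F] {q : ℕ} (hF : Fintype.card F = q ^ 2) (hq : 3 ≤ q) :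
    Ch (PSU 4 F q) (q ^ 6) := by
  classical
  obtain ⟨p, hp⟩ := CharP.exists F
  have hpr : p.Prime := (CharP.char_is_prime_or_zero F p).resolve_right (CharP.char_ne_zero_of_finite F p)
  have : Fact p.Prime := ⟨hpr⟩
  have := finite_psu F 4 q
  have := S0283.result hF 4 (by omega) (by omega)
  obtain ⟨n, -, hn⟩ := FiniteField.card F p
  rw [hF] at hn
  obtain ⟨e, -, he⟩ := (Nat.dvd_prime_pow hpr).1 (Dvd.intro_left q (by rw [← pow_two]; exact hn) : q ∣ p ^ (n : ℕ))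
  have he0 : e ≠ 0 := by
    rintro rfl
    rw [pow_zero] at he
    omega
  have hpq : p ∣ q := by rw [he]; exact dvd_pow_self p he0
  have hlie : IsLieTypeChar p (PSU 4 F q) :=
    Or.inr (Or.inr (Or.inl ⟨F, inferInstance, inferInstance, hp, 4, q, hF, by norm_num, by omega, ⟨MulEquiv.refl _⟩⟩))
  obtain ⟨χ, hχ, h1, -⟩ := H167.StChar.hasSt_of_lie hpr hlie
  refine ⟨χ, hχ, ?_⟩
  rw [h1]
  congr 1
  have h2 := S0280.result hF 4 (by omega)
  have h3 : ¬ Even 3 := by decide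
  have h4 : ¬ Even 1 := by decide
  have h5 : Even 2 := by decide
  simp only [Finset.prod_range_succ, Finset.prod_range_zero, one_mul, h3, h4, h5, if_true, if_false,
    Even.zero] at h2
  have hp1 : ∀ k, ¬ p ∣ q ^ (k + 1) + 1 := fun k h =>
    hpr.one_lt.ne' (Nat.dvd_one.1 ((Nat.dvd_add_right (dvd_pow hpq (by omega))).1 h))
  have hp2 : ∀ k, ¬ p ∣ q ^ (k + 1) - 1 := fun k h => by
    have h6 : p ∣ q ^ (k + 1) := dvd_pow hpq (by omega)
    have h7 : 1 ≤ q ^ (k + 1) := Nat.one_le_pow _ _ (by omega)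
    have h8 := (Nat.dvd_sub_iff_right h7 h6).1 h
    exact hpr.one_lt.ne' (Nat.dvd_one.1 h8)
  have hg : ¬ p ∣ Nat.gcd 4 (q + 1) := fun h => by
    have := h.trans (Nat.gcd_dvd_right _ _)
    have h9 := hp1 0
    rw [zero_add, pow_one] at h9
    exact h9 this
  have hg0 : Nat.gcd 4 (q + 1) ≠ 0 := fun h => by
    have := Nat.eq_zero_of_gcd_eq_zero_left h
    omega
  have hG0 : Nat.card (PSU 4 F q) ≠ 0 := Nat.card_pos.ne'
  have h6 := congrArg (fun N : ℕ => N.factorization p) h2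
  beta_reduce at h6
  have z1 : (q + 1).factorization p = 0 := Nat.factorization_eq_zero_of_not_dvd (by simpa using hp1 0)
  have z2 : (Nat.gcd 4 (q + 1)).factorization p = 0 := Nat.factorization_eq_zero_of_not_dvd hg
  have hM : ¬ p ∣ (q ^ (0 + 1) + 1) * (q ^ (1 + 1) - 1) * (q ^ (2 + 1) + 1) * (q ^ (3 + 1) - 1) := by
    intro h
    rcases hpr.dvd_mul.1 h with h | h
    · rcases hpr.dvd_mul.1 h with h | h
      · rcases hpr.dvd_mul.1 h with h | h
        · exact hp1 0 h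
        · exact hp2 1 h
      · exact hp1 2 h
    · exact hp2 3 h
  have hM0 : (q ^ (0 + 1) + 1) * (q ^ (1 + 1) - 1) * (q ^ (2 + 1) + 1) * (q ^ (3 + 1) - 1) ≠ 0 := fun h =>
    hM (by rw [h]; exact dvd_zero _)
  rw [Nat.factorization_mul hg0 (Nat.mul_ne_zero (by omega) hG0), Nat.factorization_mul (by omega) hG0,
    Nat.factorization_mul (pow_ne_zero _ (by omega)) hM0, Finsupp.add_apply, Finsupp.add_apply, Finsupp.add_apply,
    z1, z2, Nat.factorization_eq_zero_of_not_dvd hM, zero_add, zero_add, add_zero] at h6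
  rw [h6]
  have h7 : 4 * (4 - 1) / 2 = 6 := by norm_num
  rw [h7, he, ← pow_mul, Nat.Prime.factorization_pow hpr, Finsupp.single_eq_same]

/-- **`PSU₄(q)`, `q ≥ 4`** -/
theorem eight_big {F : Type} [Field F] [Fintype F] {q : ℕ} (hF : Fintype.card F = q ^ 2) (hq : 4 ≤ q) :
    Eight (PSU 4 F q) := by
  classical
  have := finite_psu F 4 q
  obtain ⟨p, hp⟩ := CharP.exists F
  have hpr : p.Prime := (CharP.char_is_prime_or_zero F p).resolve_right (CharP.char_ne_zero_of_finite F p)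
  have : Fact p.Prime := ⟨hpr⟩
  obtain ⟨n, -, hn⟩ := FiniteField.card F p
  rw [hF] at hn
  have hpq : p ∣ q := by
    have h1 : p ∣ q ^ 2 := by rw [hn]; exact dvd_pow_self _ n.ne_zero
    exact hpr.dvd_of_dvd_pow h1
  obtain ⟨m, hm⟩ : ∃ m, m + q = q ^ 2 + 1 := ⟨q ^ 2 + 1 - q, by
    have : q ≤ q ^ 2 := Nat.le_self_pow two_ne_zero q
    omega⟩
  have hmm : (m : ℤ) = (q : ℤ) ^ 2 + 1 - q := by
    have : ((m + q : ℕ) : ℤ) = ((q ^ 2 + 1 : ℕ) : ℤ) := by rw [hm]
    push_cast at this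
    linarith
  obtain ⟨a, ha, ha2, had⟩ := exists_a (q := q) (by omega)
  obtain ⟨l, hl, hl3, hld⟩ := exists_l (q := q) (by omega) hm
  obtain ⟨K, _, _, hK⟩ := exists_K hF
  obtain ⟨x, y, hxy⟩ := exists_ab K
  have hfK := Fintype.ofFinite K
  have hKF : Fintype.card K = q := by rw [← Nat.card_eq_fintype_card, hK]
  obtain ⟨φ⟩ := S0303.result hKF hF x y hxy
  have hF' : Fintype.card F = Nat.card K ^ 2 := by rw [hK, hF]
  -- the characters
  obtain ⟨s, t, hs, ht, hs', ht'⟩ := rk3_six K x y hxy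
  rw [hK] at hs' ht'
  have hq1 : ((q : ℤ) ^ 2 - 1) ≠ 0 := by
    have h1 : (4 : ℤ) ≤ q := by exact_mod_cast hq
    nlinarith
  have es : s = q ^ 2 * (q ^ 2 + 1) := by
    have h1 : (s : ℤ) = (q : ℤ) ^ 2 * ((q : ℤ) ^ 2 + 1) := by
      apply mul_left_cancel₀ hq1
      linear_combination hs'
    exact_mod_cast h1
  have et : t = q * m := by
    have h1 : (t : ℤ) = (q : ℤ) * m := by
      apply mul_left_cancel₀ hq1
      rw [hmm]
      linear_combination ht'
    exact_mod_cast h1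
  obtain ⟨ψ, hψ⟩ := H113.PSU.Facts.exG (F := F) hF (le_refl 4)
  have eψ : charDegree (ψ : PSU 4 F q → ℂ) = q ^ 3 * m := by
    have h1 : ((q : ℤ) ^ 2 - 1) * ((q : ℤ) + 1) * (charDegree (ψ : PSU 4 F q → ℂ) : ℤ) =
        (q : ℤ) ^ 3 * ((q : ℤ) ^ 3 + 1) * ((q : ℤ) ^ 2 - 1) := by
      have h2 := congrArg (Nat.cast : ℕ → ℤ) hψ
      have h3 : 1 ≤ q ^ 2 := Nat.one_le_pow _ _ (by omega)
      rw [show 4 - 1 = 3 from rfl, show 4 - 2 = 2 from rfl] at h2
      push_cast [Nat.cast_sub h3] at h2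
      rw [H113.PSU.Levi.uu_cast (by omega), H113.PSU.Levi.uu_cast (by omega)] at h2
      linear_combination h2
    have h4 : (charDegree (ψ : PSU 4 F q → ℂ) : ℤ) = (q : ℤ) ^ 3 * m := by
      have h5 : ((q : ℤ) + 1) ≠ 0 := by positivity
      apply mul_left_cancel₀ hq1
      apply mul_left_cancel₀ h5
      rw [hmm]
      linear_combination h1
    exact_mod_cast h4
  obtain ⟨e6, c6, d6, i6⟩ := ch_six hF hq
  obtain ⟨e8, t8, k8, c8, d8, i8⟩ := ch_eight hF (p := p)
  obtain ⟨e9, c9, d9, i9⟩ := ch_nine K (by omega) hxy (six_idx_dvd K hF' hxy)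
    (fun h z hz => six_cen K hF' hxy h z hz)
  rw [hK] at d9 i9
  have hl2 := l_odd hm hld
  have h6a : a ∣ e6 := dvd_of_down ha d6 i6 (Dvd.dvd.mul_right had _) (a_not_succ ha ha2 had)
  have h6l : l ∣ e6 := dvd_of_down hl d6 i6 (Dvd.dvd.mul_left (l_dvd_cube hm hld) _) (l_not_succ hm hl hl3 hld)
  have h9l : l ∣ e9 := dvd_of_down hl d9 i9 (Dvd.dvd.mul_left (l_dvd_cube hm hld) _) (fun h => by
    have h1 : l ∣ 2 ^ 3 := h
    exact hl2 ((Nat.prime_dvd_prime_iff_eq hl Nat.prime_two).1 (hl.dvd_of_dvd_pow h1)))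
  have h80 : 0 < e8 := by
    obtain ⟨χ, hχ, h1⟩ := c8
    have h2 := Cfsg.Agent.Characters.Core.isIrr_apply_one_ne_zero hχ
    rcases Nat.eq_zero_or_pos e8 with h0 | h0
    · rw [h0, Nat.cast_zero] at h1
      exact absurd h1 h2
    · exact h0
  have h8 : (q ^ 2 - 1) * (q ^ 3 + 1) ∣ e8 := dvd_eight (by omega) hpr hpq d8 i8
  refine eight_of_list _ (nodup_of (by omega) hpr hpq hm ha ha2 had hl hl3 hld h6a h6l d6 h8 h80 h9l d9) (by simp) ?_
  intro d hd
  simp only [List.mem_cons, List.not_mem_nil, or_false] at hd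
  rcases hd with rfl | rfl | rfl | rfl | rfl | rfl | rfl | rfl
  · exact one_mem
  · exact mem_of_ch (ch_st hF (by omega))
  · rw [← es]; exact mem_of_ch (hs.congr φ.symm)
  · rw [← eψ]; exact ⟨ψ, rfl⟩
  · rw [← et]; exact mem_of_ch (ht.congr φ.symm)
  · exact mem_of_ch c6
  · exact mem_of_ch c8
  · exact mem_of_ch (c9.congr φ.symm)

end Cfsg.Agent.H934.Eight
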