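import Cfsg.Agent.H934.Eight.CusOne
import Cfsg.Agent.H934.Eight.OrthSix
import Cfsg.Agent.H113.PSU.Facts
import Cfsg.Agent.H477.HC.RowMinus
import Cfsg.Agent.H664.Eight.Base
import Cfsg.Agent.S0280
import Cfsg.Agent.S0303

/-!
# Characters of `PSU₄(q)` (helper934)
-/

set_option autoImplicit false

open scoped ComplexConjugate
open Cfsg

namespace Cfsg.Agent.H934.Eight

open Module Cfsg.Agent.H477.HC Cfsg.Agent.H477.HC.CForm Cfsg.Agent.H113.PSU.Levi

universe u v

section unitary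

variable {F : Type u} [Field F] [Fintype F] {q : ℕ}

theorem card_Om_four (hF : Nat.card F = q ^ 2) :
    Nat.card ((CForm.hermF F hF 4).Om 1) = (q ^ 2 + 1) * (q ^ 3 + 1) := by
  classical
  have hq2 : 2 ≤ q := CForm.two_le_of_card hF
  have hF' : Fintype.card F = q ^ 2 := by rw [← Nat.card_eq_fintype_card, hF]
  have h1 := CForm.card_sing (F := CForm.hermF F hF 4)
  have h2 : Nat.card {v : Fin 4 → F // (CForm.hermF F hF 4).Sing v} = Nat.card {v : Fin 4 → F // hermForm 4 F q v v = 0} :=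
    Nat.card_congr (Equiv.subtypeEquivRight fun v => ⟨fun h => h.2, fun h => ⟨h, h⟩⟩)
  have h3 := LieClassical.HermCount.card_isotropic hF' 4
  rw [if_pos (by decide)] at h3
  rw [h2, h3, hF] at h1
  have h4 : (q ^ 2 - 1) * Nat.card (CForm.hermF F hF 4).Pt = (q ^ 4 - 1) * (q ^ (4 - 1) + 1) := by omega
  have h5 : q ^ 4 - 1 = (q ^ 2 - 1) * (q ^ 2 + 1) := by
    have := Nat.sq_sub_sq (q ^ 2) 1
    rw [one_pow] at this
    rw [mul_comm, ← this]
    ring_nf
  have h6 : 0 < q ^ 2 - 1 := by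
    have : 2 ^ 2 ≤ q ^ 2 := Nat.pow_le_pow_left hq2 2
    omega
  rw [h5, mul_assoc] at h4
  exact Nat.eq_of_mul_eq_mul_left h6 h4

/-- `(q² + 1)(q³ + 1)/t` -/
theorem ch_six (hF : Fintype.card F = q ^ 2) (hq4 : 4 ≤ q) :
    ∃ e, Ch (PSU 4 F q) e ∧ e ∣ (q ^ 2 + 1) * (q ^ 3 + 1) ∧ (q ^ 2 + 1) * (q ^ 3 + 1) / e ∣ q + 1 := by
  have hF' : Nat.card F = q ^ 2 := by rw [Nat.card_eq_fintype_card, hF]
  obtain ⟨c, hc⟩ := exists_cusU_one hF' hq4
  obtain ⟨χ, hχ, hχ1, hχz⟩ := gu_char (k := 1) (n' := 2) hF' hc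
  have h1 : dg (CForm.hermF F hF' (1 + (1 + 2))) 1 = (q ^ 2 + 1) * (q ^ 3 + 1) := by
    unfold dg
    rw [Finset.Ico_self, Finset.prod_empty, mul_one]
    exact card_Om_four hF'
  rw [h1] at hχ1
  obtain ⟨η, e, hη, he, he0, hed, hdt⟩ := H113.PSU.Descent.exists_psu hF (by omega) hχ hχ1 hχz
  exact ⟨e, ⟨η, hη, he⟩, hed, hdt⟩

/-- `(q + 1)(q² - 1)(q³ + 1)/t` -/
theorem ch_eight (hF : Fintype.card F = q ^ 2) {p : ℕ} [Fact p.Prime] [CharP F p] :
    ∃ e t a, Ch (PSU 4 F q) e ∧ t ∣ q + 1 ∧ (q + 1) * (q ^ 2 - 1) * (q ^ 3 + 1) ∣ p ^ a * (e * t) := by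
  obtain ⟨η, e, t, a, h1, h2, h3, h4⟩ := levi_char (q := q) hF (fun hq k hk => H345.CusU.exists_cusU hq k hk)
    (p := p) (n := 4) le_rfl
  refine ⟨e, t, a, ⟨η, h1, h2⟩, h3, ?_⟩
  refine (dvd_of_eq ?_).trans h4
  unfold AA
  rw [if_pos (by decide)]
  have h5 : ¬ Even 3 := by decide
  simp [Finset.prod_range_succ, uu, h5]

end unitary

section orth

variable (K : Type u) [Field K] [Finite K]

theorem card_Om_six {a b : K} (hab : ∀ z₁ z₂ : K, z₁ ^ 2 + a * z₁ * z₂ + b * z₂ ^ 2 = 0 → z₁ = 0 ∧ z₂ = 0) :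
    Nat.card ((CForm.minusF K 2 a b hab).Om 1) = (Nat.card K + 1) * (Nat.card K ^ 3 + 1) := by
  classical
  have hfin := Fintype.ofFinite K
  have hq : 2 ≤ Nat.card K := Finite.one_lt_card
  have hc : Fintype.card K = Nat.card K := Nat.card_eq_fintype_card.symm
  have h1 := CForm.card_sing (F := CForm.minusF K 2 a b hab)
  have h2 := S0290.result hc 3 (by omega) a b hab
  have h3 := num_minus hq 2
  rw [card_Sing_quad] at h1
  have h4 : (Nat.card K - 1) * Nat.card (CForm.minusF K 2 a b hab).Pt + 1 =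
      (Nat.card K ^ 2 - 1) * (Nat.card K ^ 3 + 1) + 1 := h1.trans (h2.trans h3)
  have h5 : Nat.card K ^ 2 - 1 = (Nat.card K - 1) * (Nat.card K + 1) := by
    have := Nat.sq_sub_sq (Nat.card K) 1
    rw [one_pow] at this
    rw [this, mul_comm]
  rw [h5, mul_assoc] at h4
  exact Nat.eq_of_mul_eq_mul_left (by omega) (Nat.add_right_cancel h4)

/-- `(q + 1)(q³ + 1)/t` -/
theorem ch_nine (hq4 : 4 ≤ Nat.card K) {a b : K}
    (hab : ∀ z₁ z₂ : K, z₁ ^ 2 + a * z₁ * z₂ + b * z₂ ^ 2 = 0 → z₁ = 0 ∧ z₂ = 0)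
    (hidx : (Omega K (quadFormMinus 2 K a b)).index ∣ 8)
    (hcen : Nat.card K % 4 ≠ 3 → ∀ z : Omega K (quadFormMinus 2 K a b), z ∈ Subgroup.center _ → z = 1) :
    ∃ e, Ch (POmega K (quadFormMinus 2 K a b)) e ∧ e ∣ (Nat.card K + 1) * (Nat.card K ^ 3 + 1) ∧
      (Nat.card K + 1) * (Nat.card K ^ 3 + 1) / e ∣ 8 := by
  classical
  obtain ⟨p, hp⟩ := CharP.exists K
  have hpr : p.Prime := (CharP.char_is_prime_or_zero K p).resolve_right (CharP.char_ne_zero_of_finite K p)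
  have : Fact p.Prime := ⟨hpr⟩
  obtain ⟨Z, c, hc, hZ⟩ : ∃ (Z : Kˣ → Prop) (c : GL (Fin 1) K → ℂ), Cus K 1 (RingHom.id K) Z c ∧
      ∀ z : Omega K (quadFormMinus 2 K a b), z ∈ Subgroup.center (Omega K (quadFormMinus 2 K a b)) →
        ∃ a : Kˣ, Z a ∧ ∀ v, (omMat z).mulVec v = (a : K) • v := by
    by_cases h3 : Nat.card K % 4 = 3
    · obtain ⟨c, hc⟩ := exists_cus_two (K := K) rfl (by omega) 1 one_pos (by rw [pow_one]; omega) (by omega)
      exact ⟨_, c, hc, fun z hz => scal_of (cen_minus K (by omega) a b hab z hz)⟩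
    · obtain ⟨c, hc⟩ := exists_cus_one (K := K) rfl 1 one_pos (by rw [pow_one]; omega) (by omega)
      refine ⟨_, c, hc, fun z hz => ⟨1, one_pow 1, fun v => ?_⟩⟩
      rw [hcen h3 z hz, Units.val_one, one_smul]
      change (1 : Matrix _ _ K).mulVec v = v
      rw [Matrix.one_mulVec]
  obtain ⟨⟨W₀, hW₀⟩, -⟩ := CForm.minusF_frame (K := K) (p := p) hab 1 1
  obtain ⟨χ, hχ, hχ1, hχz⟩ := om_char (CForm.minusF K (1 + 1) a b hab) (minus_hB K (1 + 1) a b hab) hW₀ hc
  have h1 : dg (CForm.minusF K (1 + 1) a b hab) 1 = (Nat.card K + 1) * (Nat.card K ^ 3 + 1) := by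
    unfold dg
    rw [Finset.Ico_self, Finset.prod_empty, mul_one]
    exact card_Om_six K hab
  rw [h1] at hχ1
  obtain ⟨e, h2, h3, h4, h5⟩ := ch_down (Omega K (quadFormMinus 2 K a b)) hχ hχ1 (fun z hz => by
    obtain ⟨c', hc', hc''⟩ := hZ z hz
    exact hχz z c' hc' hc'')
  exact ⟨e, h2, h3, h4.trans hidx⟩

theorem six_idx {F : Type v} [Field F] [Fintype F] (hF : Fintype.card F = Nat.card K ^ 2) {a b : K}
    (hab : ∀ z₁ z₂ : K, z₁ ^ 2 + a * z₁ * z₂ + b * z₂ ^ 2 = 0 → z₁ = 0 ∧ z₂ = 0) :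
    (Omega K (quadFormMinus 2 K a b)).index * Nat.card (Subgroup.center (Omega K (quadFormMinus 2 K a b))) =
      2 * Nat.gcd 4 (Nat.card K + 1) := by
  classical
  let _ := Fintype.ofFinite K
  have hc : Fintype.card K = Nat.card K := Nat.card_eq_fintype_card.symm
  refine idx_eq (quadFormMinus 2 K a b) (g := Nat.gcd 4 (Nat.card K + 1))
    (X := Nat.card K ^ 6 * (Nat.card K ^ 3 + 1) * ∏ i ∈ Finset.range 2, (Nat.card K ^ (2 * (i + 1)) - 1)) ?_ ?_
  · have := Cfsg.Agent.S0288.result (F := K) hc 3 (by omega) a b hab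
    rw [show (3 : ℕ) - 1 = 2 from rfl] at this
    rw [this]
    ring
  · obtain ⟨φ⟩ := S0303.result hc hF a b hab
    have h1 := S0280.result hF 4 (by omega)
    rw [Nat.card_congr φ.toEquiv]
    have h2 : (Nat.card K + 1) * (Nat.gcd 4 (Nat.card K + 1) * Nat.card (PSU 4 F (Nat.card K))) =
        (Nat.card K + 1) * (Nat.card K ^ 6 * (Nat.card K ^ 3 + 1) *
          ∏ i ∈ Finset.range 2, (Nat.card K ^ (2 * (i + 1)) - 1)) := by
      have h3 : ¬ Even 3 := by decide
      have h4 : ¬ Even 1 := by decide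
      have h5 : Even 2 := by decide
      simp only [Finset.prod_range_succ, Finset.prod_range_zero, one_mul, h3, h4, h5, if_true, if_false,
        Even.zero] at h1
      calc _ = Nat.gcd 4 (Nat.card K + 1) * ((Nat.card K + 1) * Nat.card (PSU 4 F (Nat.card K))) := by ring
        _ = _ := by
          rw [h1]
          simp only [Finset.prod_range_succ, Finset.prod_range_zero, one_mul]
          norm_num
          ring
    exact Nat.eq_of_mul_eq_mul_left (by omega) h2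

theorem six_idx_dvd {F : Type v} [Field F] [Fintype F] (hF : Fintype.card F = Nat.card K ^ 2) {a b : K}
    (hab : ∀ z₁ z₂ : K, z₁ ^ 2 + a * z₁ * z₂ + b * z₂ ^ 2 = 0 → z₁ = 0 ∧ z₂ = 0) :
    (Omega K (quadFormMinus 2 K a b)).index ∣ 8 :=
  (Dvd.intro _ (six_idx K hF hab)).trans
    ((Nat.mul_dvd_mul_left 2 (Nat.gcd_dvd_left 4 _)).trans (by norm_num))

theorem six_cen {F : Type v} [Field F] [Fintype F] (hF : Fintype.card F = Nat.card K ^ 2) {a b : K}
    (hab : ∀ z₁ z₂ : K, z₁ ^ 2 + a * z₁ * z₂ + b * z₂ ^ 2 = 0 → z₁ = 0 ∧ z₂ = 0) (h3 : Nat.card K % 4 ≠ 3)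
    (z : Omega K (quadFormMinus 2 K a b)) (hz : z ∈ Subgroup.center (Omega K (quadFormMinus 2 K a b))) : z = 1 := by
  classical
  obtain ⟨p, hp⟩ := CharP.exists K
  have hpr : p.Prime := (CharP.char_is_prime_or_zero K p).resolve_right (CharP.char_ne_zero_of_finite K p)
  have : Fact p.Prime := ⟨hpr⟩
  rcases Nat.even_or_odd (Nat.card K) with he | ho
  · -- characteristic two: `-1 = 1`
    have h2 : (2 : K) = 0 := by
      have h1 : ((Nat.card K : ℕ) : K) = 0 := by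
        have := Fintype.ofFinite K
        rw [Nat.card_eq_fintype_card]
        exact FiniteField.cast_card_eq_zero K
      obtain ⟨k, hk⟩ := he
      obtain ⟨⟨p', n, hp', hn, hpn⟩⟩ : Nonempty (Σ' (p' n : ℕ) (_ : p'.Prime) (_ : 0 < n), Nat.card K = p' ^ n) := by
        obtain ⟨n, hn⟩ := card_pow K p
        refine ⟨⟨p, n, hpr, ?_, hn⟩⟩
        rcases Nat.eq_zero_or_pos n with rfl | h
        · have : 1 < Nat.card K := Finite.one_lt_card
          rw [hn, pow_zero] at this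
          omega
        · exact h
      have hp2 : p = 2 := by
        obtain ⟨n, hn⟩ := card_pow K p
        have h2 : 2 ∣ p ^ n := by rw [← hn, hk]; exact ⟨k, by ring⟩
        exact ((Nat.prime_dvd_prime_iff_eq Nat.prime_two hpr).1 (Nat.prime_two.dvd_of_dvd_pow h2)).symm
      subst hp2
      exact_mod_cast CharP.cast_eq_zero K 2
    have hm := cen_minus K (show 1 ≤ 2 by omega) a b hab z hz
    have h1 : omMat z = 1 := by
      rcases hm with h | h
      · exact h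
      · rw [h]
        ext i j
        have h4 : (-1 : K) = 1 := by linear_combination -h2
        rcases eq_or_ne i j with rfl | hij
        · simp [h4]
        · simp [hij]
    apply Subtype.ext
    apply Subtype.ext
    apply Units.ext
    exact h1
  · have h1 := six_idx K hF hab
    rw [minus_idx_four K (p := p) ho a b hab 2] at h1
    have h2 : Nat.gcd 4 (Nat.card K + 1) = 2 := by
      have h4 : Nat.card K % 4 = 1 := by
        obtain ⟨k, hk⟩ := ho; omega
      have h5 : (Nat.card K + 1) % 4 = 2 := by omega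
      rw [Nat.gcd_rec, h5]
      norm_num
    rw [h2] at h1
    have h3 : Nat.card (Subgroup.center (Omega K (quadFormMinus 2 K a b))) = 1 := by omega
    have h4 := (Subgroup.card_eq_one).1 h3
    rw [h4, Subgroup.mem_bot] at hz
    exact hz

end orth

end Cfsg.Agent.H934.Eight
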