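import Cfsg.Agent.H345.CusU

/-!
# A linear character of `K^*`, `|K| = q²`, for the unitary groups (helper934)

`exists_cusU_one` : `exists_cusU` for `k = 1`, `q ≥ 4`.
-/

set_option autoImplicit false

open scoped ComplexConjugate
open Cfsg

namespace Cfsg.Agent.H934.Eight

open Cfsg.Agent.OddOrderCharacters.Clifford Cfsg.Agent.Characters MulAction Module Cfsg.Agent.H53.HC
open Cfsg.Agent.H139.Cusp Cfsg.Agent.H477.HC Cfsg.Agent.H345.CusU

universe u

theorem size_dual_one {q : ℕ} (hq : 4 ≤ q) : ¬ ((q ^ 2) ^ 1 - 1) ∣ (q + 1) * (q ^ 2) ^ 0 + (q + 1) * q := by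
  obtain ⟨r, rfl⟩ : ∃ r, q = r + 4 := ⟨q - 4, by omega⟩
  rintro ⟨c, hc⟩
  have h1 : ((r + 4) ^ 2) ^ 1 - 1 = (r + 5) * (r + 3) := by
    rw [pow_one]
    have : (r + 4) ^ 2 = (r + 5) * (r + 3) + 1 := by ring
    rw [this, Nat.add_sub_cancel]
  rw [h1, pow_zero] at hc
  have h2 : (r + 5) * (r + 5) = (r + 5) * ((r + 3) * c) := by
    rw [← mul_assoc, ← hc]; ring
  have h3 := Nat.eq_of_mul_eq_mul_left (by omega) h2
  rcases c with _ | _ | c
  · omega
  · omega
  · have : (r + 3) * (c + 1 + 1) = (r + 3) * c + 2 * (r + 3) := by ring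
    rw [this] at h3
    have := Nat.zero_le ((r + 3) * c)
    omega

theorem exists_cusU_one {K : Type u} [Field K] [Finite K] {q : ℕ} (hq : Nat.card K = q ^ 2) (hq4 : 4 ≤ q) :
    ∃ c : GL (Fin 1) K → ℂ, Cus K 1 (CForm.powHom hq) (fun z => z ^ (q + 1) = 1) c := by
  classical
  have hk0 : 0 < 1 := by omega
  have hq2 : 2 ≤ q := by omega
  obtain ⟨L, _, _, _, hL⟩ := exists_L K 1 hk0
  obtain ⟨θ, hθ⟩ := exists_theta L
  have hcardL : Nat.card Lˣ = Nat.card K ^ 1 - 1 := by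
    rw [Nat.card_units, Module.natCard_eq_pow_finrank (K := K), hL]
  have ha : q + 1 ≠ 0 := by omega
  have hb : (q + 1) * q ≠ 0 := Nat.mul_ne_zero ha (by omega)
  have hR : Regular K 1 (powTheta θ (q + 1) ha) := (regular_powTheta_iff hθ ha hL).2 (by
    intro i hi hik h
    omega)
  refine ⟨psi L (powTheta θ (q + 1) ha), psi_isIrr _ hL hR, psi_isCusp L _, ?_, ?_, ?_⟩
  · intro h
    have h1 : ∀ g : ((Fin 1 → K) →ₗ[K] (Fin 1 → K))ˣ,
        cusp L (powTheta θ (q + 1) ha) (g : (Fin 1 → K) →ₗ[K] (Fin 1 → K)) =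
        cusp L (conjTheta (powTheta θ ((q + 1) * q) hb)) (g : (Fin 1 → K) →ₗ[K] (Fin 1 → K)) := by
      intro g
      let A : GL (Fin 1) K := Matrix.GeneralLinearGroup.toLin.symm g
      have h2 := congrFun h A
      rw [Function.comp_apply, MonoidHom.comp_apply,
        psi_map_pow (powTheta θ (q + 1) ha) (powTheta θ ((q + 1) * q) hb) hL hq
          (fun x => by rw [powTheta_apply, powTheta_apply, map_pow, ← pow_mul, mul_comm q]),
        psi_invT _ hL] at h2
      have h4 : ∀ θ₁ : L →*₀ ℂ, psi L θ₁ A = cusp L θ₁ (g : (Fin 1 → K) →ₗ[K] (Fin 1 → K)) := by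
        intro θ₁
        have h5 : Matrix.GeneralLinearGroup.toLin A = g := MulEquiv.apply_symm_apply _ g
        rw [← h5]
        rfl
      rw [h4, h4, cusp_star] at h2
      exact h2.symm
    obtain ⟨i, hi, h2⟩ := (cusp_eq_iff (V := Fin 1 → K) (powTheta θ (q + 1) ha)
      (conjTheta (powTheta θ ((q + 1) * q) hb))
      (by rw [Module.finrank_fin_fun, hL]) (by rw [hL]; exact hR)).1 h1
    rw [hL] at hi
    have h3 := (conj_powTheta_eq_iff hθ ha hb (pow_ne_zero i (Nat.card_pos (α := K)).ne')).1 h2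
    rw [hcardL, hq] at h3
    obtain rfl : i = 0 := by omega
    exact size_dual_one hq4 h3
  · intro z hz
    have h1 := psi_scalar (powTheta θ (q + 1) ha) hL z 1
    rw [mul_one] at h1
    rw [h1, powTheta_eq_one ha, one_mul]
    rw [← map_pow, ← Units.val_pow_eq_pow_val, hz, Units.val_one, map_one]
  · rw [psi_one L _ hk0, degP_eq_Ico]

end Cfsg.Agent.H934.Eight
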